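import Cfsg.Agent.H231.QF.Defs
import Cfsg.Agent.TwoESix.LeviG
import Cfsg.Agent.KFacts.TwESix.Facts
import Cfsg.Agent.KFacts.RgdTI
import Cfsg.Agent.H326.QS.VPE

/-!
# S2491, row F4: the Levi subgroup of `P_1` (helper297)

* `mem_P1_iff`, `mem_PN1_iff` : `P_1`, `P_1⁻` are the centralizers of the root elements of `X_θ`, `X_(-θ)`;
* `mem_Lv_iff` : `g ∈ L_1` iff `g` commutes with both;
* `exists_su6` : a surjection of `SU₆(2)` onto `L_1` with kernel the centre.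
-/

set_option autoImplicit false
set_option linter.unusedSectionVars false

namespace Cfsg.Agent.H297.QF.Su

open CoxeterSystem Cfsg.Agent.ChevalleyStructure.CoxeterGeom Cfsg.Agent.Tits.Roots Cfsg.Agent.Tits.Core
  Cfsg.Agent.Nodes Cfsg.Agent.Nodes.Reps Cfsg.Agent.Nodes.BNOf Cfsg.Agent.Nodes.RGDLib Cfsg.Agent.Nodes.Bruhat
  Cfsg.Agent.Nodes.OppDec Cfsg.Agent.Nodes.LeviDec Cfsg.Agent.Nodes.StabComb Cfsg.Agent.Nodes.Coroot
open Cfsg.Agent.KFacts.RgdPar Cfsg.Agent.KFacts.RgdSL Cfsg.Agent.KFacts.RgdTI Cfsg.Agent.KFacts.RgdRigid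
open Cfsg.Agent.KFacts.TwESix.Comb (rts mem_rts bf finiteW cpr_long exists_rep_long ge_iff)
open Cfsg.Agent.Nodes.RGDTwGen Cfsg.Agent.Nodes.RGDFold
open Cfsg.Agent.ChevalleyStructure.Elts (xG)
open Cfsg.Agent.ChevalleyStructure.TwistedU (mem_rspan)
open Cfsg.Agent.TwoESix.LeviA (Four)
open Cfsg.Agent.TwoESix.LeviF (r0 s0)
open Cfsg.Lie Subgroup
open Cfsg.Agent.H231.QF

universe u v

variable {F : Type u} [Field F] [Fintype F]

/-! ### generalities -/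

theorem finite_W : Finite CoxeterMatrix.F₄.Group := finiteW cs

theorem charTwo (hF : Fintype.card F = 4) : CharP F 2 := (Cfsg.Agent.TwoESix.LeviA.exists_four F hF).1

theorem inv4 (hF : Fintype.card F = 4) (t : F) : (t ^ 2) ^ 2 = t := by
  rw [← pow_mul]
  have h := FiniteField.pow_card t
  rwa [hF] at h

theorem four (hF : Fintype.card F = 4) {φ : F →+* F} (hφ : ∀ t, φ t = t ^ 2) : Four F φ :=
  ⟨hF, hφ, fun t => by rw [hφ, hφ, inv4 hF]⟩

/-- the root group datum -/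
theorem exists_R (hF : Fintype.card F = 4) {φ : F →+* F} (hφ : ∀ t, φ t = t ^ 2) :
    RGD cs RGDTwE6.isCartan 2 (RGDTwE6.T F 2) (RGDTwE6.nn hφ) (X φ) := by
  have := charTwo hF
  have : Fact (Nat.Prime 2) := ⟨Nat.prime_two⟩
  exact RGDTwE6.rgd cs hφ (inv4 hF) 2

theorem G1_top (hF : Fintype.card F = 4) {φ : F →+* F} (hφ : ∀ t, φ t = t ^ 2) :
    RGDLib.G1 cs RGDTwE6.isCartan (X φ) = ⊤ := RGDTwE6.G1_eq_top cs hφ (inv4 hF)

theorem mem_GG' (hF : Fintype.card F = 4) {φ : F →+* F} (hφ : ∀ t, φ t = t ^ 2) (g : KK F) :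
    g ∈ GG cs RGDTwE6.isCartan (RGDTwE6.T F 2) (X φ) := by
  rw [GG_eq_top (T := RGDTwE6.T F 2) (G1_top hF hφ)]
  exact Subgroup.mem_top g

theorem th_root : IsRoot cs RGDTwE6.isCartan th := (mem_rts cs).2 (by decide +kernel)

theorem th_long : bf th th = 4 := by decide +kernel

theorem nth_root : IsRoot cs RGDTwE6.isCartan (-th) := th_root.neg

theorem nth_long : bf (-th) (-th) = 4 := by decide +kernel

theorem bf_th (x : Fin 4 → ℤ) : bf x th = 2 * x 0 := Cfsg.Agent.KFacts.TwESix.Comb.bf_rho x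

theorem bf_nth (x : Fin 4 → ℤ) : bf x (-th) = -(2 * x 0) := by
  rw [Cfsg.Agent.KFacts.TwESix.Comb.bf_neg_right, bf_th]

/-- fixed root elements lie in the root groups -/
theorem xE_mem (hF : Fintype.card F = 4) {φ : F →+* F} (hφ : ∀ t, φ t = t ^ 2) {r : Fin 72}
    (hr : Cfsg.Agent.ChevalleyStructure.TwE6Basic.rho r = r) {z : Fin 4 → ℤ} (hz : V chevE6 RGDTwE6.J r.val = z) :
    Cfsg.Agent.TwoESix.LeviF.xE (four hF hφ) r hr ∈ X φ z := by
  have hE := (Cfsg.Agent.TwoESix.LeviF.xE (four hF hφ) r hr).2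
  refine Subgroup.mem_subgroupOf.2 ?_
  refine Subgroup.mem_inf.2 ⟨?_, Cfsg.Agent.ChevalleyStructure.TwE6Basic.twisted_le_fix φ hφ (inv4 hF) hE⟩
  exact mem_rspan (xG (F := F) RGDTwE6.hp.inList) (show r.val ∈ {k | k < chevE6.nroots ∧ V chevE6 RGDTwE6.J k = z}
    from ⟨r.isLt, hz⟩) 1

theorem r0_mem (hF : Fintype.card F = 4) {φ : F →+* F} (hφ : ∀ t, φ t = t ^ 2) : r0 (four hF hφ) ∈ X φ th :=
  xE_mem hF hφ _ (by decide +kernel)

theorem s0_mem (hF : Fintype.card F = 4) {φ : F →+* F} (hφ : ∀ t, φ t = t ^ 2) : s0 (four hF hφ) ∈ X φ (-th) :=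
  xE_mem hF hφ _ (by decide +kernel)

theorem s0_ne (hF : Fintype.card F = 4) {φ : F →+* F} (hφ : ∀ t, φ t = t ^ 2) : s0 (four hF hφ) ≠ 1 := by
  intro h
  obtain ⟨g, hg⟩ := Cfsg.Agent.TwoESix.LeviF.s0_conj (four hF hφ)
  rw [h] at hg
  apply Cfsg.Agent.TwoESix.LeviF.r0_ne (four hF hφ)
  calc r0 (four hF hφ) = g⁻¹ * (g * r0 (four hF hφ) * g⁻¹) * g := by group
    _ = 1 := by rw [← hg]; group

/-- long root groups have at most one nontrivial element -/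
theorem eq_of_long (hF : Fintype.card F = 4) {φ : F →+* F} (hφ : ∀ t, φ t = t ^ 2) {z : Fin 4 → ℤ}
    (hz : IsRoot cs RGDTwE6.isCartan z) (hl : bf z z = 4) {a b : KK F} (ha : a ∈ X φ z) (hb : b ∈ X φ z) (ha1 : a ≠ 1)
    (hb1 : b ≠ 1) : a = b := by
  refine Cfsg.Agent.H326.QS.VP.eq_of_long (exists_R hF hφ) ?_ ((mem_rts cs).1 hz) hl ha hb ha1 hb1
  have h2 := Cfsg.Agent.H326.QS.VPE.card_X0 hφ (inv4 hF)
  obtain ⟨x, y, hxy, hu⟩ := Nat.card_eq_two_iff.1 h2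
  intro a ha b hb ha1 hb1
  have key : ∀ c : ↥(X φ (sr 0)), c = x ∨ c = y := fun c => by
    have := Set.mem_univ c
    rw [← hu] at this
    exact this
  have e1 := key 1
  have ea := key ⟨a, ha⟩
  have eb := key ⟨b, hb⟩
  have na : (⟨a, ha⟩ : ↥(X φ (sr 0))) ≠ 1 := fun h => ha1 (congrArg Subtype.val h)
  have nb : (⟨b, hb⟩ : ↥(X φ (sr 0))) ≠ 1 := fun h => hb1 (congrArg Subtype.val h)
  have : (⟨a, ha⟩ : ↥(X φ (sr 0))) = ⟨b, hb⟩ := by
    rcases e1 with e1 | e1 <;> rcases ea with ea | ea <;> rcases eb with eb | eb <;>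
      first
        | exact ea.trans eb.symm
        | exact absurd (ea.trans e1.symm) na
        | exact absurd (eb.trans e1.symm) nb
  exact congrArg Subtype.val this

/-- the torus centralizes the long root groups -/
theorem T_comm (hF : Fintype.card F = 4) {φ : F →+* F} (hφ : ∀ t, φ t = t ^ 2) {z : Fin 4 → ℤ}
    (hz : IsRoot cs RGDTwE6.isCartan z) (hl : bf z z = 4) {t a : KK F} (ht : t ∈ RGDTwE6.T F 2) (ha : a ∈ X φ z) :
    t * a = a * t := by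
  by_cases ha1 : a = 1
  · rw [ha1, mul_one, one_mul]
  have h1 : t * a * t⁻¹ ∈ X φ z := by
    have h2 := (exists_R hF hφ).tor z hz t ht
    rw [← h2]
    exact conj_mem_cj.2 ha
  have h3 : t * a * t⁻¹ ≠ 1 := fun h => ha1 (mul_eq_left.1 (mul_inv_eq_one.1 h))
  have h4 := eq_of_long hF hφ hz hl h1 ha h3 ha1
  exact mul_inv_eq_iff_eq_mul.1 h4

/-- the centralizer of a long root element -/
theorem comm_iff (hF : Fintype.card F = 4) {φ : F →+* F} (hφ : ∀ t, φ t = t ^ 2) {z : Fin 4 → ℤ}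
    (hz : IsRoot cs RGDTwE6.isCartan z) (hl : bf z z = 4) {a : KK F} (ha : a ∈ X φ z) (ha1 : a ≠ 1) (g : KK F) :
    g * a = a * g ↔ g ∈ PS (RGDTwE6.T F 2) (X φ) (Ge cs RGDTwE6.isCartan z) := by
  have := finite_W
  have := charTwo hF
  have : Fact (Nat.Prime 2) := ⟨Nat.prime_two⟩
  have L : LR (exists_R hF hφ) z := Cfsg.Agent.KFacts.TwESix.Grp.lr_long cs hφ (inv4 hF) 2 hz hl
  constructor
  · exact fun h => L.le_PS_of_comm (mem_GG' hF hφ g) ha ha1 h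
  · intro h
    have h1 : PS (RGDTwE6.T F 2) (X φ) (Ge cs RGDTwE6.isCartan z) ≤ centralizer ({a} : Set (KK F)) := by
      refine sup_le ?_ ?_
      · intro t ht
        exact mem_centralizer_singleton_iff.2 (T_comm hF hφ hz hl ht ha)
      · intro u hu
        exact mem_centralizer_singleton_iff.2 (L.comm' hu ha)
    exact mem_centralizer_singleton_iff.1 (h1 h)


theorem PS_th (φ : F →+* F) :
    PS (RGDTwE6.T F 2) (X φ) (Ge cs RGDTwE6.isCartan th) = P φ j1 := by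
  unfold PS P PJ LJ VJ
  rw [sup_assoc]
  congr 1
  apply le_antisymm
  · refine RGD.Sup_le fun x hx => ?_
    have h0 : 0 ≤ x 0 := by
      have h1 := (ge_iff cs th_root th_long).1 hx.2
      rw [bf_th] at h1
      omega
    rcases h0.lt_or_eq with h0 | h0
    · refine le_trans (RGD.le_Sup (S := NotJ cs RGDTwE6.isCartan j1) ⟨hx.1, nonneg_of_pos_apply hx.1 h0, 0, ?_, h0⟩)
        le_sup_right
      exact fun h => h rfl
    · refine le_trans (RGD.le_Sup (S := RootsJ cs RGDTwE6.isCartan j1) ⟨hx.1, fun k hk => ?_⟩) le_sup_left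
      have hk : k = 0 := not_not.1 hk
      rw [hk]; exact h0.symm
  · refine sup_le (RGD.Sup_le fun x hx => RGD.le_Sup (S := Ge cs RGDTwE6.isCartan th) ⟨hx.1, ?_⟩)
      (RGD.Sup_le fun x hx => RGD.le_Sup (S := Ge cs RGDTwE6.isCartan th) ⟨hx.1, ?_⟩)
    · rw [ge_iff cs th_root th_long, bf_th, hx.2 0 fun h => h rfl]
      norm_num
    · rw [ge_iff cs th_root th_long, bf_th]
      have := hx.2.1 0
      simp only [Pi.zero_apply] at this
      omega

theorem PS_nth (φ : F →+* F) :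
    PS (RGDTwE6.T F 2) (X φ) (Ge cs RGDTwE6.isCartan (-th)) =
      PNJ cs RGDTwE6.isCartan (RGDTwE6.T F 2) (X φ) j1 := by
  unfold PS PNJ LJ VNJ
  rw [sup_assoc]
  congr 1
  apply le_antisymm
  · refine RGD.Sup_le fun x hx => ?_
    have h0 : x 0 ≤ 0 := by
      have h1 := (ge_iff cs nth_root nth_long).1 hx.2
      rw [bf_nth] at h1
      omega
    rcases h0.lt_or_eq with h0 | h0
    · have h0' : 0 < (-x) 0 := by simpa using h0
      refine le_trans (RGD.le_Sup (S := NotNJ cs RGDTwE6.isCartan j1)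
        (show -x ∈ NotJ cs RGDTwE6.isCartan j1 from ⟨hx.1.neg, nonneg_of_pos_apply hx.1.neg h0', 0, ?_, h0'⟩))
        le_sup_right
      exact fun h => h rfl
    · refine le_trans (RGD.le_Sup (S := RootsJ cs RGDTwE6.isCartan j1) ⟨hx.1, fun k hk => ?_⟩) le_sup_left
      have hk : k = 0 := not_not.1 hk
      rw [hk]; exact h0
  · refine sup_le (RGD.Sup_le fun x hx => RGD.le_Sup (S := Ge cs RGDTwE6.isCartan (-th)) ⟨hx.1, ?_⟩)
      (RGD.Sup_le fun x hx => RGD.le_Sup (S := Ge cs RGDTwE6.isCartan (-th)) ⟨NotNJ.isRoot hx, ?_⟩)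
    · rw [ge_iff cs nth_root nth_long, bf_nth, hx.2 0 fun h => h rfl]
      norm_num
    · rw [ge_iff cs nth_root nth_long, bf_nth]
      have := hx.2.1 0
      simp only [Pi.zero_apply, Pi.neg_apply] at this
      omega

/-- **`P_1` is the centralizer of the root element `r0`.** -/
theorem mem_P1_iff (hF : Fintype.card F = 4) {φ : F →+* F} (hφ : ∀ t, φ t = t ^ 2) {a : KK F} (ha : a ∈ X φ th)
    (ha1 : a ≠ 1) (g : KK F) : g ∈ P φ j1 ↔ g * a = a * g := by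
  rw [comm_iff hF hφ th_root th_long ha ha1, PS_th]

theorem mem_PN1_iff (hF : Fintype.card F = 4) {φ : F →+* F} (hφ : ∀ t, φ t = t ^ 2) {a : KK F} (ha : a ∈ X φ (-th))
    (ha1 : a ≠ 1) (g : KK F) : g ∈ PNJ cs RGDTwE6.isCartan (RGDTwE6.T F 2) (X φ) j1 ↔ g * a = a * g := by
  rw [comm_iff hF hφ nth_root nth_long ha ha1, PS_nth]

/-- K2 -/
theorem centralizer_eq (hF : Fintype.card F = 4) {φ : F →+* F} (hφ : ∀ t, φ t = t ^ 2) {t : KK F} (ht : t ∈ X φ th)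
    (h1 : t ≠ 1) : centralizer ({t} : Set (KK F)) = P φ j1 := by
  ext g
  rw [mem_P1_iff hF hφ ht h1, mem_centralizer_singleton_iff]

/-- **`L_1` is the centralizer of `r0` and `s0`.** -/
theorem mem_Lv_iff (hF : Fintype.card F = 4) {φ : F →+* F} (hφ : ∀ t, φ t = t ^ 2) (g : KK F) :
    g ∈ Lv φ j1 ↔ g * r0 (four hF hφ) = r0 (four hF hφ) * g ∧ g * s0 (four hF hφ) = s0 (four hF hφ) * g := by
  have := finite_W
  rw [← mem_P1_iff hF hφ (r0_mem hF hφ) (Cfsg.Agent.TwoESix.LeviF.r0_ne (four hF hφ)),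
    ← mem_PN1_iff hF hφ (s0_mem hF hφ) (s0_ne hF hφ), ← Subgroup.mem_inf]
  rw [PJ_inf_PNJ (exists_R hF hφ) j1]

theorem mem_Lv_iff' (hF : Fintype.card F = 4) {φ : F →+* F} (hφ : ∀ t, φ t = t ^ 2) (g : KK F) :
    g ∈ Lv φ j1 ↔ (g : GL chevE6.Idx F) ∈ Cfsg.Agent.TwoESix.LeviC.LL F := by
  rw [mem_Lv_iff hF hφ, Subgroup.mem_inf, ← Cfsg.Agent.TwoESix.LeviB.cent_pair (four hF hφ) g.2]
  constructor
  · rintro ⟨h1, h2⟩
    exact ⟨⟨congrArg Subtype.val h1, congrArg Subtype.val h2⟩, g.2⟩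
  · rintro ⟨⟨h1, h2⟩, -⟩
    exact ⟨Subtype.ext h1, Subtype.ext h2⟩

/-- the inclusion of the Levi subgroup -/
def incL (F : Type u) [Field F] : ↥(Cfsg.Agent.TwoESix.LeviC.LL F) →* KK F :=
  Subgroup.inclusion inf_le_right

theorem incL_range (hF : Fintype.card F = 4) {φ : F →+* F} (hφ : ∀ t, φ t = t ^ 2) : (incL F).range = Lv φ j1 := by
  ext g
  rw [mem_Lv_iff' hF hφ]
  constructor
  · rintro ⟨l, rfl⟩
    exact l.2
  · intro h
    exact ⟨⟨g, h⟩, rfl⟩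

theorem incL_injective : Function.Injective (incL F) := Subgroup.inclusion_injective _

/-- the Levi subgroup of `P_1` is `PSU₆(2)`, long root elements correspond to transvections -/
theorem exists_e (hF : Fintype.card F = 4) {φ : F →+* F} (hφ : ∀ t, φ t = t ^ 2) (hF2 : Fintype.card F = 2 ^ 2) :
    ∃ e : ↥(Cfsg.Agent.TwoESix.LeviC.LL F) ≃* PSU 6 F 2, ∀ g, g ∈ Cfsg.Agent.TwoESix.LeviE.DD (four hF hφ) ↔
      e g ∈ Cfsg.Agent.R01.PSUSix.TT hF2 6 :=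
  Cfsg.Agent.TwoESix.LeviF.exists_e (four hF hφ) hF2 (Cfsg.Agent.TwoESix.LeviCard.factorization_LL (four hF hφ))

/-- **K4** -/
theorem exists_su6 (hF : Fintype.card F = 4) {φ : F →+* F} (hφ : ∀ t, φ t = t ^ 2) :
    ∃ f : SU 6 F 2 →* KK F, f.range = Lv φ j1 ∧ f.ker = center (SU 6 F 2) := by
  obtain ⟨e, -⟩ := exists_e hF hφ (by rw [hF]; norm_num)
  refine ⟨((incL F).comp e.symm.toMonoidHom).comp (QuotientGroup.mk' (center (SU 6 F 2))), ?_, ?_⟩
  · rw [← incL_range hF hφ]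
    ext g
    constructor
    · rintro ⟨x, rfl⟩
      exact ⟨_, rfl⟩
    · rintro ⟨l, rfl⟩
      obtain ⟨x, hx⟩ := QuotientGroup.mk'_surjective (center (SU 6 F 2)) (e l)
      refine ⟨x, ?_⟩
      show incL F (e.symm (QuotientGroup.mk' (center (SU 6 F 2)) x)) = incL F l
      rw [hx, e.symm_apply_apply]
  · ext x
    rw [MonoidHom.mem_ker]
    show incL F (e.symm (QuotientGroup.mk' (center (SU 6 F 2)) x)) = 1 ↔ _
    rw [map_eq_one_iff _ incL_injective, map_eq_one_iff _ e.symm.injective, ← MonoidHom.mem_ker,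
      QuotientGroup.ker_mk']

/-! ### transvections -/

open Cfsg.Agent.SporadicStructure

theorem h39 : Cfsg.Agent.ChevalleyStructure.TwE6Basic.rho 39 = 39 := by decide +kernel

/-- the simple root element of the long node `1` -/
def x39 (hF : Fintype.card F = 4) {φ : F →+* F} (hφ : ∀ t, φ t = t ^ 2) : KK F :=
  Cfsg.Agent.TwoESix.LeviF.xE (four hF hφ) 39 h39

theorem x39_mem (hF : Fintype.card F = 4) {φ : F →+* F} (hφ : ∀ t, φ t = t ^ 2) :
    x39 hF hφ ∈ X φ (sr 1) := xE_mem hF hφ _ (by decide +kernel)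

theorem x39_LL (hF : Fintype.card F = 4) {φ : F →+* F} (hφ : ∀ t, φ t = t ^ 2) :
    ((x39 hF hφ : KK F) : GL chevE6.Idx F) ∈ Cfsg.Agent.TwoESix.LeviC.LL F :=
  Cfsg.Agent.TwoESix.LeviD.x_mem_LL (four hF hφ) (by decide +kernel) h39

theorem x39_DD (hF : Fintype.card F = 4) {φ : F →+* F} (hφ : ∀ t, φ t = t ^ 2) :
    (⟨_, x39_LL hF hφ⟩ : ↥(Cfsg.Agent.TwoESix.LeviC.LL F)) ∈ Cfsg.Agent.TwoESix.LeviE.DD (four hF hφ) := by
  have := charTwo hF
  refine (Cfsg.Agent.TwoESix.LeviE.mem_DD (four hF hφ)).2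
    ⟨⟨Cfsg.Agent.TwoESix.LeviB.wn [2, 3], Cfsg.Agent.TwoESix.LeviD.wn_mem_LL (four hF hφ) (by decide)⟩, Subtype.ext ?_⟩
  have h := Cfsg.Agent.TwoESix.LeviB.wn_conj (K := F) [2, 3] 60 1
  have e : Cfsg.Agent.TwoESix.LeviB.wpm [2, 3] 60 = 39 := by decide +kernel
  rw [e] at h
  exact h

/-- **K4**, with the class of transvections -/
theorem exists_su6_T (hF : Fintype.card F = 4) {φ : F →+* F} (hφ : ∀ t, φ t = t ^ 2) (hF2 : Fintype.card F = 2 ^ 2) :
    ∃ f : SU 6 F 2 →* KK F, f.range = Lv φ j1 ∧ f.ker = center (SU 6 F 2) ∧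
      (∀ (v : Fin 6 → F) (hv : hermForm 6 F 2 v v = 0), v ≠ 0 →
        ∃ x ∈ Lv φ j1, x * f (UnitTwo.T hF2 v hv) * x⁻¹ ∈ X φ (sr 1)) ∧
      ∃ (v : Fin 6 → F) (hv : hermForm 6 F 2 v v = 0), v ≠ 0 ∧ f (UnitTwo.T hF2 v hv) ∈ X φ (sr 1) := by
  obtain ⟨e, he⟩ := exists_e hF hφ hF2
  have hf : ∀ x, ((incL F).comp e.symm.toMonoidHom).comp (QuotientGroup.mk' (center (SU 6 F 2))) x =
      incL F (e.symm (QuotientGroup.mk' (center (SU 6 F 2)) x)) := fun _ => rfl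
  have hr : (((incL F).comp e.symm.toMonoidHom).comp (QuotientGroup.mk' (center (SU 6 F 2)))).range = Lv φ j1 := by
    rw [← incL_range hF hφ]
    ext g
    constructor
    · rintro ⟨x, rfl⟩
      exact ⟨_, rfl⟩
    · rintro ⟨l, rfl⟩
      obtain ⟨x, hx⟩ := QuotientGroup.mk'_surjective (center (SU 6 F 2)) (e l)
      refine ⟨x, ?_⟩
      rw [hf, hx, e.symm_apply_apply]
  refine ⟨_, hr, ?_, ?_, ?_⟩
  · ext x
    rw [MonoidHom.mem_ker, hf, map_eq_one_iff _ incL_injective, map_eq_one_iff _ e.symm.injective,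
      ← MonoidHom.mem_ker, QuotientGroup.ker_mk']
  · intro v hv h0
    have h1 : Cfsg.Agent.ClassicalGeometry.UnitAutBasic.tau hF2 v ∈ Cfsg.Agent.R01.PSUSix.TT hF2 6 :=
      Cfsg.Agent.R01.PSUSix.tau_mem hF2 h0 hv
    rw [Cfsg.Agent.R01.PSUSix.tau_eq_pr hF2 hv] at h1
    have h2 : e.symm (QuotientGroup.mk' (center (SU 6 F 2)) (UnitTwo.T hF2 v hv)) ∈
        Cfsg.Agent.TwoESix.LeviE.DD (four hF hφ) := by
      rw [he, e.apply_symm_apply]
      exact h1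
    obtain ⟨c, hc⟩ := (Cfsg.Agent.TwoESix.LeviE.mem_DD (four hF hφ)).1 h2
    obtain ⟨d, hd⟩ := (Cfsg.Agent.TwoESix.LeviE.mem_DD (four hF hφ)).1 (x39_DD hF hφ)
    refine ⟨incL F (d * c⁻¹), ?_, ?_⟩
    · rw [← incL_range hF hφ]
      exact ⟨_, rfl⟩
    · have h3 : incL F (d * c⁻¹) * incL F (e.symm (QuotientGroup.mk' (center (SU 6 F 2)) (UnitTwo.T hF2 v hv))) *
          (incL F (d * c⁻¹))⁻¹ = x39 hF hφ := by
        rw [← map_inv, ← map_mul, ← map_mul, ← hc]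
        have h4 : d * c⁻¹ * (c * Cfsg.Agent.TwoESix.LeviE.d0 (four hF hφ) * c⁻¹) * (d * c⁻¹)⁻¹ =
            ⟨_, x39_LL hF hφ⟩ := by rw [← hd]; group
        rw [h4]
        rfl
      rw [hf, h3]
      exact x39_mem hF hφ
  · obtain ⟨v, h0, hv, h1⟩ := (he _).1 (x39_DD hF hφ)
    refine ⟨v, hv, h0, ?_⟩
    rw [Cfsg.Agent.R01.PSUSix.tau_eq_pr hF2 hv] at h1
    have h2 : incL F (e.symm (QuotientGroup.mk' (center (SU 6 F 2)) (UnitTwo.T hF2 v hv))) = x39 hF hφ := by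
      have h3 : e.symm (QuotientGroup.mk' (center (SU 6 F 2)) (UnitTwo.T hF2 v hv)) = ⟨_, x39_LL hF hφ⟩ := by
        rw [MulEquiv.symm_apply_eq]
        exact h1.symm
      rw [h3]
      rfl
    rw [hf, h2]
    exact x39_mem hF hφ

end Cfsg.Agent.H297.QF.Su
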